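import Cfsg.Agent.SymSylow54.Decomp

/-!
When is a Sylow 2-subgroup of an alternating group a direct product?
-/

set_option autoImplicit false

namespace CfsgLib.SymSylow54

open Equiv Cfsg CfsgLib.SymSylow

section Map

variable {G H : Type*} [Group G] [Group H]

theorem idp_map (f : G →* H) (hf : Function.Injective f) (S1 S2 S : Subgroup G)
    (h : IsInternalDirectProduct S1 S2 S) : IsInternalDirectProduct (S1.map f) (S2.map f) (S.map f) := by
  obtain ⟨h1, h2, hc, hi, hs⟩ := h
  refine ⟨Subgroup.map_mono h1, Subgroup.map_mono h2, ?_, ?_, ?_⟩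
  · rintro _ ⟨a, ha, rfl⟩ _ ⟨b, hb, rfl⟩
    rw [← map_mul, ← map_mul, hc a ha b hb]
  · rw [← Subgroup.map_inf _ _ f hf, hi, Subgroup.map_bot]
  · rw [← Subgroup.map_sup, hs]

theorem idp_comap (f : G →* H) (hf : Function.Injective f) (S : Subgroup G) (T1 T2 : Subgroup H)
    (h : IsInternalDirectProduct T1 T2 (S.map f)) :
    IsInternalDirectProduct (T1.comap f) (T2.comap f) S := by
  have e : ∀ T : Subgroup H, T ≤ S.map f → (T.comap f).map f = T := fun T hT =>
    Subgroup.map_comap_eq_self (hT.trans (Subgroup.map_le_range f S))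
  have inj := Subgroup.map_injective hf
  obtain ⟨h1, h2, hc, hi, hs⟩ := h
  have le : ∀ T : Subgroup H, T ≤ S.map f → T.comap f ≤ S := fun T hT x hx => by
    obtain ⟨y, hy, hyx⟩ := hT hx
    exact hf hyx ▸ hy
  refine ⟨le _ h1, le _ h2, fun a ha b hb => hf (by rw [map_mul, map_mul]; exact hc _ ha _ hb), ?_, ?_⟩
  · rw [← Subgroup.comap_inf, hi, MonoidHom.comap_bot, (MonoidHom.ker_eq_bot_iff f).mpr hf]
  · apply inj
    rw [Subgroup.map_sup, e _ h1, e _ h2, hs]

end Map

variable {α : Type*} [DecidableEq α] [Fintype α]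

theorem sum_two_pow_distinct {β : Type*} (B : Finset β) (c : β → ℕ) (e : β → ℕ)
    (hc : ∀ b ∈ B, c b = 2 ^ e b) (hinj : Set.InjOn e B) {r : ℕ} (h : ∑ b ∈ B, c b = 2 ^ r) :
    B.card = 1 := by
  classical
  rw [Finset.sum_congr rfl hc] at h
  by_cases hr : ∃ b ∈ B, e b = r
  · obtain ⟨b, hb, rfl⟩ := hr
    rw [← Finset.add_sum_erase B _ hb] at h
    have h0 : B.erase b = ∅ := by
      rw [Finset.eq_empty_iff_forall_notMem]
      intro x hx
      have h1 := Finset.single_le_sum (f := fun y => 2 ^ e y) (fun _ _ => Nat.zero_le _) hx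
      have h2 : 0 < 2 ^ e x := by positivity
      omega
    have h3 := Finset.card_erase_of_mem hb
    rw [h0, Finset.card_empty] at h3
    have := Finset.card_pos.mpr ⟨b, hb⟩
    omega
  · exfalso
    push_neg at hr
    have hlt : ∀ k ∈ B.image e, k < r := by
      intro k hk
      obtain ⟨b, hb, rfl⟩ := Finset.mem_image.mp hk
      rcases lt_trichotomy (e b) r with hl | hl | hl
      · exact hl
      · exact absurd hl (hr b hb)
      · have h1 := Finset.single_le_sum (f := fun y => 2 ^ e y) (fun _ _ => Nat.zero_le _) hb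
        have h2 := Nat.pow_lt_pow_right (show 1 < 2 by norm_num) hl
        omega
    have := Nat.geomSum_lt (m := 2) le_rfl hlt
    rw [Finset.sum_image hinj, h] at this
    exact lt_irrefl _ this

theorem even_onSet_pair {T : Finset α} (hT : T.card = 2) {g : Perm α} (hg : g ∈ onSet T)
    (hs : Perm.sign g = 1) : g = 1 := by
  obtain ⟨a, b, hab, rfl⟩ := Finset.card_eq_two.mp hT
  have hk := onSet_le_keeps _ hg
  have ha : g a = a ∨ g a = b := by simpa using (hk a).mpr (Finset.mem_insert_self a _)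
  rcases ha with ha | ha
  · have hb : g b = a ∨ g b = b := by
      simpa using (hk b).mpr (Finset.mem_insert_of_mem (Finset.mem_singleton_self b))
    rcases hb with hb | hb
    · exact absurd (g.injective (ha.trans hb.symm)) hab
    ext x
    by_cases hx : x = a
    · rw [hx, ha]; rfl
    by_cases hx' : x = b
    · rw [hx', hb]; rfl
    exact hg x (by simp [hx, hx'])
  · exfalso
    have hgab : g = Equiv.swap a b := by
      ext x
      by_cases hx : x = a
      · rw [hx, ha, Equiv.swap_apply_left]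
      by_cases hx' : x = b
      · have hb : g b = a ∨ g b = b := by
          simpa using (hk b).mpr (Finset.mem_insert_of_mem (Finset.mem_singleton_self b))
        rcases hb with hb | hb
        · rw [hx', hb, Equiv.swap_apply_right]
        · exact absurd (g.injective (ha.trans hb.symm)) hab
      rw [hg x (by simp [hx, hx']), Equiv.swap_apply_of_ne_of_ne hx hx']
    rw [hgab, Perm.sign_swap hab] at hs
    exact absurd hs (by decide)

theorem commute_onSet_pair {T : Finset α} (hT : T.card = 2) {g h : Perm α} (hg : g ∈ onSet T)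
    (hh : h ∈ onSet T) : g * h = h * g := by
  rcases Int.units_eq_one_or (Perm.sign g) with e | e
  · rw [even_onSet_pair hT hg e, one_mul, mul_one]
  rcases Int.units_eq_one_or (Perm.sign h) with e' | e'
  · rw [even_onSet_pair hT hh e', one_mul, mul_one]
  · have h1 : g * h⁻¹ = 1 := even_onSet_pair hT (mul_mem hg (inv_mem hh))
      (by rw [map_mul, map_inv, e, e']; decide)
    rw [mul_inv_eq_one] at h1
    rw [h1]

/-- The structure of the orbits of a Sylow 2-subgroup of the symmetric group. -/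
structure Shape (P : Subgroup (Perm α)) (R T : Finset α) : Prop where
  sylow : IsSylowOn 2 Finset.univ P
  keepsR : P ≤ keeps R
  keepsT : P ≤ keeps T
  disj : Disjoint R T
  off : ∀ x, x ∉ R → x ∉ T → ∀ g ∈ P, g x = x
  four : ∀ x ∈ R, 4 ≤ (orb P x).card
  orbR : ∀ x, 4 ≤ (orb P x).card → x ∈ R
  cardT : T.card = 2 * (Fintype.card α % 4 / 2)
  cardR : R.card = 4 * (Fintype.card α / 4)
  single : (∀ x ∈ R, ∀ y ∈ R, y ∈ orb P x) ↔ R = ∅ ∨ ∃ r, R.card = 2 ^ r

theorem exists_shape (P : Sylow 2 (Perm α)) :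
    ∃ R T, Shape (P : Subgroup (Perm α)) R T := by
  classical
  set Q : Subgroup (Perm α) := (P : Subgroup (Perm α))
  have hQ : IsSylowOn 2 Finset.univ Q := isSylowOn_univ P
  set c : α → ℕ := fun x => (orb Q x).card
  have hpow : ∀ x, ∃ k, c x = 2 ^ k := fun x => card_orb_eq_pow hQ.isPGroup x
  choose e he using hpow
  have hdisj : ∀ x y, orb Q x ≠ orb Q y → Disjoint (orb Q x) (orb Q y) := fun x y hne =>
    Finset.disjoint_left.mpr fun t ht ht' => hne (by rw [← orb_eq_of_mem ht, orb_eq_of_mem ht'])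
  have huniq : ∀ x y, c x = c y → orb Q x = orb Q y := fun x y hxy => by
    by_contra hne
    exact hQ.card_ne (Finset.subset_univ _) (Finset.subset_univ _) (le_keeps_orb Q x) (le_keeps_orb Q y)
      (hdisj x y hne) ⟨x, self_mem_orb Q x⟩ hxy
  have hconst : ∀ x, ∀ g ∈ Q, c (g x) = c x := fun x g hg => by
    show (orb Q (g x)).card = (orb Q x).card
    rw [orb_eq_of_mem (mem_orb.mpr ⟨g, hg, rfl⟩)]
  set R := Finset.univ.filter fun x => 4 ≤ c x
  set T := Finset.univ.filter fun x => c x = 2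
  set F := Finset.univ.filter fun x => c x = 1
  have hcls : ∀ k, (Finset.univ.filter fun x => c x = k).card = 0 ∨
      (Finset.univ.filter fun x => c x = k).card = k := by
    intro k
    rcases Finset.eq_empty_or_nonempty (Finset.univ.filter fun x => c x = k) with h | ⟨x, hx⟩
    · exact Or.inl (by rw [h, Finset.card_empty])
    · right
      have hxk : c x = k := (Finset.mem_filter.mp hx).2
      conv_rhs => rw [← hxk]
      congr 1
      ext y
      simp only [Finset.mem_filter, Finset.mem_univ, true_and]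
      refine ⟨fun hy => ?_, fun hy => ?_⟩
      · rw [← huniq y x (hy.trans hxk.symm)]; exact self_mem_orb Q y
      · show (orb Q y).card = k
        rw [orb_eq_of_mem hy]; exact hxk
  have hsplit : ∀ x, c x = 1 ∨ c x = 2 ∨ 4 ≤ c x := fun x => by
    rw [he x]
    rcases (show e x = 0 ∨ e x = 1 ∨ 2 ≤ e x by omega) with h | h | h
    · exact Or.inl (by rw [h]; rfl)
    · exact Or.inr (Or.inl (by rw [h]; rfl))
    · exact Or.inr (Or.inr (le_trans (show 4 ≤ 2 ^ 2 by norm_num) (Nat.pow_le_pow_right (by norm_num) h)))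
  have htot : R.card + T.card + F.card = Fintype.card α := by
    rw [← Finset.card_union_of_disjoint, ← Finset.card_union_of_disjoint, ← Finset.card_univ]
    · congr 1
      ext x
      simp only [R, T, F, Finset.mem_union, Finset.mem_filter, Finset.mem_univ, true_and, iff_true]
      rcases hsplit x with h | h | h <;> tauto
    · rw [Finset.disjoint_left]
      intro x hx hx'
      simp only [R, T, F, Finset.mem_union, Finset.mem_filter, Finset.mem_univ, true_and] at hx hx'
      omega
    · rw [Finset.disjoint_left]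
      intro x hx hx'
      simp only [R, T, Finset.mem_filter, Finset.mem_univ, true_and] at hx hx'
      omega
  set B := R.image (orb Q)
  have hBR : ∑ b ∈ B, b.card = R.card := by
    rw [Finset.card_eq_sum_card_fiberwise (f := orb Q) (t := B) (s := R)
      (fun x hx => Finset.mem_image_of_mem _ hx)]
    refine Finset.sum_congr rfl fun b hb => ?_
    obtain ⟨x, hx, rfl⟩ := Finset.mem_image.mp hb
    congr 1
    ext y
    simp only [Finset.mem_filter]
    refine ⟨fun hy => ⟨?_, orb_eq_of_mem hy⟩, fun hy => hy.2 ▸ self_mem_orb Q y⟩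
    have hx' : 4 ≤ c x := (Finset.mem_filter.mp hx).2
    simp only [R, Finset.mem_filter, Finset.mem_univ, true_and]
    show 4 ≤ (orb Q y).card
    rw [orb_eq_of_mem hy]; exact hx'
  have h4R : 4 ∣ R.card := by
    rw [← hBR]
    refine Finset.dvd_sum fun b hb => ?_
    obtain ⟨x, hx, rfl⟩ := Finset.mem_image.mp hb
    have hx' : 4 ≤ c x := (Finset.mem_filter.mp hx).2
    show 4 ∣ c x
    rw [he x] at hx' ⊢
    have h2 : 2 ≤ e x := by
      by_contra h
      have := Nat.pow_le_pow_right (show 0 < 2 by norm_num) (show e x ≤ 1 by omega)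
      omega
    exact pow_dvd_pow 2 h2
  have hT2 := hcls 2
  have hF1 := hcls 1
  have hkeep : ∀ (p : ℕ → Prop) [DecidablePred p], Q ≤ keeps (Finset.univ.filter fun x => p (c x)) :=
    fun p _ g hg x => by simp [hconst x g hg]
  refine ⟨R, T, hQ, hkeep (fun k => 4 ≤ k), hkeep (fun k => k = 2), ?_, ?_,
    fun x hx => (Finset.mem_filter.mp hx).2, fun x hx => Finset.mem_filter.mpr ⟨Finset.mem_univ _, hx⟩,
    ?_, ?_, ?_⟩
  · rw [Finset.disjoint_left]
    intro x hx hx'
    simp only [R, T, Finset.mem_filter, Finset.mem_univ, true_and] at hx hx'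
    omega
  · intro x hxR hxT g hg
    simp only [R, T, Finset.mem_filter, Finset.mem_univ, true_and] at hxR hxT
    have h1 : c x = 1 := by rcases hsplit x with h | h | h <;> omega
    exact Finset.card_le_one.mp h1.le _ (mem_orb.mpr ⟨g, hg, rfl⟩) _ (self_mem_orb Q x)
  · change T.card = _
    have : T.card = 0 ∨ T.card = 2 := hT2
    have : F.card = 0 ∨ F.card = 1 := hF1
    omega
  · have : T.card = 0 ∨ T.card = 2 := hT2
    have : F.card = 0 ∨ F.card = 1 := hF1
    omega
  · constructor
    · intro hall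
      rcases Finset.eq_empty_or_nonempty R with h | ⟨x, hx⟩
      · exact Or.inl h
      · refine Or.inr ⟨e x, ?_⟩
        rw [← he x]
        congr 1
        refine Finset.Subset.antisymm (fun y hy => hall x hx y hy) fun y hy => ?_
        have hx' : 4 ≤ c x := (Finset.mem_filter.mp hx).2
        refine Finset.mem_filter.mpr ⟨Finset.mem_univ _, ?_⟩
        show 4 ≤ (orb Q y).card
        rw [orb_eq_of_mem hy]; exact hx'
    · rintro (h | ⟨r, hr⟩) x hx y hy
      · rw [h] at hx; exact absurd hx (Finset.notMem_empty x)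
      · have h1 : B.card = 1 := by
          refine sum_two_pow_distinct B Finset.card (fun b => Nat.log 2 b.card) ?_ ?_ (hBR.trans hr)
          · intro b hb
            obtain ⟨z, -, rfl⟩ := Finset.mem_image.mp hb
            show c z = 2 ^ Nat.log 2 (c z)
            rw [he z, Nat.log_pow (by norm_num)]
          · intro b hb b' hb' hbb
            simp only [Finset.mem_coe] at hb hb'
            obtain ⟨z, -, rfl⟩ := Finset.mem_image.mp hb
            obtain ⟨z', -, rfl⟩ := Finset.mem_image.mp hb'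
            apply huniq
            have hbb' : Nat.log 2 (c z) = Nat.log 2 (c z') := hbb
            rw [he z, he z'] at hbb' ⊢
            rw [Nat.log_pow (by norm_num), Nat.log_pow (by norm_num)] at hbb'
            rw [hbb']
        rw [Finset.card_le_one.mp h1.le _ (Finset.mem_image_of_mem _ hx) _ (Finset.mem_image_of_mem _ hy)]
        exact self_mem_orb Q y

variable {P : Subgroup (Perm α)} {R T : Finset α}

theorem Shape.sylowR (hS : Shape P R T) : IsSylowOn 2 R (P ⊓ onSet R) ∧ ∀ g ∈ P, res R g ∈ P ⊓ onSet R := by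
  obtain ⟨r1, -, s1, -⟩ := hS.sylow.split (Finset.subset_univ R) hS.keepsR
  exact ⟨s1, fun g hg => ⟨r1 g hg, res_mem_onSet _ _⟩⟩

/-- No pair orbit, at least eight points moved: no decomposition. -/
theorem Shape.indecomposable_odd (hS : Shape P R T) (hT : T = ∅) (h8 : 8 ≤ R.card)
    {S1 S2 : Subgroup (Perm α)} (h : IsInternalDirectProduct S1 S2 (evenPart P)) (h1 : S1 ≠ ⊥)
    (h2 : S2 ≠ ⊥) : False := by
  by_cases hall : ∀ x ∈ R, ∀ y ∈ R, y ∈ orb P x
  · obtain ⟨hW, hres⟩ := hS.sylowR
    have hPR : P ≤ onSet R := fun g hg x hx => hS.off x hx (by simp [hT]) g hg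
    rw [inf_eq_left.mpr hPR] at hW
    exact indecomposable_transitive hW (fun x hx y hy => mem_orb.mp (hall x hx y hy)) h8 h h1 h2
  · refine indecomposable_several hS.sylow (fun x _ hx => ?_) (fun x _ => ?_) h h1 h2
    · by_contra hlt
      have hxR : x ∉ R := fun hR => hlt (hS.four x hR)
      obtain ⟨a, ha, b, hb, hab⟩ := Finset.one_lt_card.mp hx
      obtain ⟨g, hg, rfl⟩ := mem_orb.mp ha
      obtain ⟨g', hg', rfl⟩ := mem_orb.mp hb
      exact hab (by rw [hS.off x hxR (by simp [hT]) g hg, hS.off x hxR (by simp [hT]) g' hg'])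
    · push_neg at hall
      obtain ⟨a, ha, b, hb, hab⟩ := hall
      have hd : Disjoint (orb P a) (orb P b) := Finset.disjoint_left.mpr fun t ht ht' =>
        hab (by rw [← orb_eq_of_mem ht, orb_eq_of_mem ht']; exact self_mem_orb P b)
      by_cases hxa : Disjoint (orb P x) (orb P a)
      · exact ⟨a, Finset.mem_univ _, by have := hS.four a ha; omega, hxa⟩
      · obtain ⟨t, ht, ht'⟩ := Finset.not_disjoint_iff.mp hxa
        refine ⟨b, Finset.mem_univ _, by have := hS.four b hb; omega, ?_⟩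
        rw [show orb P x = orb P a by rw [← orb_eq_of_mem ht, orb_eq_of_mem ht']]
        exact hd

theorem Shape.exists_tau (hS : Shape P R T) (hT : T.card = 2) :
    ∃ τ ∈ P ⊓ onSet T, Perm.sign τ = -1 := by
  obtain ⟨-, -, s1, -⟩ := hS.sylow.split (Finset.subset_univ T) hS.keepsT
  exact s1.exists_sign_neg (by omega)

theorem Shape.onSet_union (hS : Shape P R T) {g : Perm α} (hg : g ∈ P) : g ∈ onSet (R ∪ T) :=
  fun x hx => hS.off x (fun h => hx (Finset.mem_union_left _ h)) (fun h => hx (Finset.mem_union_right _ h)) g hg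

/-- A pair orbit and one further orbit: no decomposition. -/
theorem Shape.indecomposable_pair (hS : Shape P R T) (hT : T.card = 2) (hR : 4 ≤ R.card)
    (hall : ∀ x ∈ R, ∀ y ∈ R, y ∈ orb P x) {S1 S2 : Subgroup (Perm α)}
    (h : IsInternalDirectProduct S1 S2 (evenPart P)) (h1 : S1 ≠ ⊥) (h2 : S2 ≠ ⊥) : False := by
  obtain ⟨hW, hres⟩ := hS.sylowR
  have htr : ∀ x ∈ R, ∀ y ∈ R, ∃ g ∈ P ⊓ onSet R, g x = y := fun x hx y hy => by
    obtain ⟨g, hg, hgx⟩ := mem_orb.mp (hall x hx y hy)
    exact ⟨res R g, hres g hg, by rw [res_apply_of_mem (hS.keepsR hg) hx, hgx]⟩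
  obtain ⟨z, hz, -, hzs, -, hzu⟩ := exists_center hW htr hR
  obtain ⟨τ, hτ, hτs⟩ := hS.exists_tau hT
  have det : ∀ c ∈ evenPart P, ∀ d ∈ evenPart P, res R c = res R d → c = d := by
    intro c hc d hd he
    have hcd : c * d⁻¹ ∈ evenPart P := mul_mem hc (inv_mem hd)
    have hT' : c * d⁻¹ ∈ onSet T := by
      intro x hx
      by_cases hxR : x ∈ R
      · have hk := inv_mem (hS.keepsR hd.1)
        have : res R (c * d⁻¹) = 1 := by
          rw [res_mul (hS.keepsR hc.1) hk, res_inv (hS.keepsR hd.1), he, mul_inv_cancel]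
        rw [← res_apply_of_mem (hS.keepsR hcd.1) hxR, this]; rfl
      · exact hS.off x hxR hx _ hcd.1
    exact mul_inv_eq_one.mp (even_onSet_pair hT hT' hcd.2)
  refine no_decomposition (hS.sylow.isPGroup.to_le inf_le_left) h (z := z) (fun c hc hcc => ?_) h1 h2
  have hrc : ∀ w ∈ P ⊓ onSet R, res R c * w = w * res R c := by
    intro w hw
    obtain ⟨v, hv, hvw⟩ : ∃ v ∈ evenPart P, res R v = w := by
      rcases Int.units_eq_one_or (Perm.sign w) with hs | hs
      · exact ⟨w, ⟨hw.1, hs⟩, res_of_mem_onSet hw.2⟩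
      · refine ⟨w * τ, ⟨P.mul_mem hw.1 hτ.1, ?_⟩, ?_⟩
        · change Perm.sign (w * τ) = 1
          rw [map_mul, hs, hτs]; decide
        · rw [res_mul (hS.keepsR hw.1) (hS.keepsR hτ.1), res_of_mem_onSet hw.2,
            res_onSet_disjoint hS.disj hτ.2, mul_one]
    rw [← hvw, ← res_mul (hS.keepsR hc.1) (hS.keepsR hv.1), hcc v hv,
      res_mul (hS.keepsR hv.1) (hS.keepsR hc.1)]
  rcases hzu _ (hres c hc.1) hrc with e | e
  · exact Or.inl (det c hc 1 (one_mem _) (by rw [e, res_one]))
  · exact Or.inr (det c hc z ⟨hz.1, hzs⟩ (by rw [e, res_of_mem_onSet hz.2]))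

/-- A pair orbit and several further orbits: a decomposition. -/
theorem Shape.decomposable_pair (hS : Shape P R T) (hT : T.card = 2)
    (hall : ¬ ∀ x ∈ R, ∀ y ∈ R, y ∈ orb P x) :
    ∃ S1 S2 : Subgroup (Perm α), S1 ≠ ⊥ ∧ S2 ≠ ⊥ ∧ IsInternalDirectProduct S1 S2 (evenPart P) := by
  push_neg at hall
  obtain ⟨a, ha, b, hb, hab⟩ := hall
  obtain ⟨τ, hτ, hτs⟩ := hS.exists_tau hT
  set A := orb P a
  set C := R \ A
  have hAR : A ⊆ R := orb_subset hS.keepsR ha
  have hAT : Disjoint A T := Disjoint.mono_left hAR hS.disj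
  have hCT : Disjoint C T := Disjoint.mono_left Finset.sdiff_subset hS.disj
  have hbC : b ∈ C := Finset.mem_sdiff.mpr ⟨hb, hab⟩
  set S1 := evenPart P ⊓ onSet (A ∪ T)
  set S2 := evenPart P ⊓ onSet (C ∪ T)
  have fix_even : ∀ {g : Perm α} (U : Finset α), g ∈ P ⊓ onSet U → Disjoint U T →
      ∃ g' ∈ evenPart P ⊓ onSet (U ∪ T), ∀ x ∈ U, g' x = g x := by
    intro g U hg hd
    rcases Int.units_eq_one_or (Perm.sign g) with hs | hs
    · exact ⟨g, ⟨⟨hg.1, hs⟩, onSet_mono Finset.subset_union_left hg.2⟩, fun _ _ => rfl⟩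
    · refine ⟨g * τ, ⟨⟨P.mul_mem hg.1 hτ.1, ?_⟩, mul_mem (onSet_mono Finset.subset_union_left hg.2)
        (onSet_mono Finset.subset_union_right hτ.2)⟩, fun x hx => ?_⟩
      · change Perm.sign (g * τ) = 1
        rw [map_mul, hs, hτs]; decide
      · rw [Perm.mul_apply, hτ.2 x (Finset.disjoint_left.mp hd hx)]
  have move : ∀ x ∈ R, ∀ U : Finset α, orb P x ⊆ U → Disjoint U T →
      evenPart P ⊓ onSet (U ∪ T) ≠ ⊥ := by
    intro x hx U hxU hd hbot
    obtain ⟨y, hy, hne⟩ := Finset.exists_mem_ne (show 1 < (orb P x).card by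
      have := hS.four x hx; omega) x
    obtain ⟨g, hg, hgy⟩ := (orbit_props hS.sylow (Finset.mem_univ x)).2.2 x (self_mem_orb P x) y hy
    obtain ⟨g', hg', he⟩ := fix_even U ⟨hg.1, onSet_mono hxU hg.2⟩ hd
    rw [hbot, Subgroup.mem_bot] at hg'
    apply hne
    rw [← hgy, ← he x (hxU (self_mem_orb P x)), hg']
    rfl
  refine ⟨S1, S2, move a ha A (le_refl _) hAT, move b hb C ?_ hCT, inf_le_left, inf_le_left, ?_, ?_, ?_⟩
  · intro t ht
    refine Finset.mem_sdiff.mpr ⟨orb_subset hS.keepsR hb ht, fun ht' => hab ?_⟩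
    have e : orb P b = orb P a := by rw [← orb_eq_of_mem ht, orb_eq_of_mem ht']
    show b ∈ orb P a
    rw [← e]; exact self_mem_orb P b
  · intro g hg k hk
    have hgT := hS.keepsT hg.1.1
    have hkT := hS.keepsT hk.1.1
    ext x
    rw [Perm.mul_apply, Perm.mul_apply]
    by_cases hxT : x ∈ T
    · have h := Perm.congr_fun (commute_onSet_pair hT (res_mem_onSet T g) (res_mem_onSet T k)) x
      rw [Perm.mul_apply, Perm.mul_apply, res_apply_of_mem hkT hxT, res_apply_of_mem hgT hxT,
        res_apply_of_mem hgT ((hkT x).mpr hxT), res_apply_of_mem hkT ((hgT x).mpr hxT)] at h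
      exact h
    by_cases hxA : x ∈ A
    · have hnc : ∀ y ∈ A, y ∉ C ∪ T := fun y hy => by
        simp [C, hy, Finset.disjoint_left.mp hAT hy]
      have hgA : g x ∈ A := (le_keeps_orb P a hg.1.1 x).mpr hxA
      rw [hk.2 x (hnc x hxA), hk.2 _ (hnc _ hgA)]
    · have hna : ∀ y, y ∉ A → y ∉ T → y ∉ A ∪ T := fun y h1 h2 => by simp [h1, h2]
      have hkA : k x ∉ A := fun h => hxA ((le_keeps_orb P a hk.1.1 x).mp h)
      have hkT' : k x ∉ T := fun h => hxT ((hkT x).mp h)
      rw [hg.2 x (hna x hxA hxT), hg.2 _ (hna _ hkA hkT')]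
  · rw [eq_bot_iff]
    intro g hg
    rw [Subgroup.mem_bot]
    refine even_onSet_pair hT (fun x hx => ?_) hg.1.1.2
    by_cases hxA : x ∈ A
    · exact hg.2.2 x (by simp [C, hxA, hx])
    · exact hg.1.2 x (by simp [hxA, hx])
  · refine le_antisymm (sup_le inf_le_left inf_le_left) fun e he => ?_
    obtain ⟨a', ha', haA⟩ := fix_even A ((orbit_props hS.sylow (Finset.mem_univ a)).2.1 e he.1) hAT
    have hb' : a'⁻¹ * e ∈ S2 := by
      refine ⟨(evenPart P).mul_mem ((evenPart P).inv_mem ha'.1) he, fun x hx => ?_⟩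
      rw [Finset.mem_union, not_or] at hx
      rw [Perm.mul_apply, Perm.inv_eq_iff_eq]
      by_cases hxA : x ∈ A
      · rw [haA x hxA, res_apply_of_mem (le_keeps_orb P a he.1) hxA]
      · have hxR : x ∉ R := fun h => hx.1 (Finset.mem_sdiff.mpr ⟨h, hxA⟩)
        rw [hS.off x hxR hx.2 e he.1, ha'.2 x (by simp [hxA, hx.2])]
    have := Subgroup.mul_mem_sup (S := S1) (T := S2) ha' hb'
    rwa [mul_inv_cancel_left] at this

/-- The main equivalence. -/
theorem decomposable_iff (hn : 4 ≤ Fintype.card α) (S : Sylow 2 (alternatingGroup α))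
    (hsmall : Fintype.card α ≤ 5 →
      ∃ S₁ S₂ : Subgroup (alternatingGroup α), S₁ ≠ ⊥ ∧ S₂ ≠ ⊥ ∧
        IsInternalDirectProduct S₁ S₂ (S : Subgroup (alternatingGroup α))) :
    (∃ S₁ S₂ : Subgroup (alternatingGroup α), S₁ ≠ ⊥ ∧ S₂ ≠ ⊥ ∧
        IsInternalDirectProduct S₁ S₂ (S : Subgroup (alternatingGroup α))) ↔
      (Fintype.card α = 4 ∨ Fintype.card α = 5 ∨
        ((Fintype.card α % 4 = 2 ∨ Fintype.card α % 4 = 3) ∧ ∀ r : ℕ, 4 * (Fintype.card α / 4) ≠ 2 ^ r)) := by
  obtain ⟨P, hP⟩ := exists_evenPart_eq S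
  obtain ⟨R, T, hS⟩ := exists_shape P
  set f := (alternatingGroup α).subtype
  have hf : Function.Injective f := (alternatingGroup α).subtype_injective
  have hcT := hS.cardT
  have hcR := hS.cardR
  constructor
  · rintro ⟨S1, S2, h1, h2, h⟩
    have h' := idp_map f hf S1 S2 _ h
    rw [hP] at h'
    have e1 : S1.map f ≠ ⊥ := fun e => h1 ((Subgroup.map_eq_bot_iff_of_injective _ hf).mp e)
    have e2 : S2.map f ≠ ⊥ := fun e => h2 ((Subgroup.map_eq_bot_iff_of_injective _ hf).mp e)
    by_contra hcon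
    push_neg at hcon
    obtain ⟨n4, n5, n23⟩ := hcon
    rcases (show T.card = 0 ∨ T.card = 2 by omega) with hT | hT
    · exact hS.indecomposable_odd (Finset.card_eq_zero.mp hT) (by omega) h' e1 e2
    · obtain ⟨r, hr⟩ := n23 (by omega)
      exact hS.indecomposable_pair hT (by omega)
        (hS.single.mpr (Or.inr ⟨r, by rw [hcR, hr]⟩)) h' e1 e2
  · rintro (h | h | ⟨hm, hr⟩)
    · exact hsmall (by omega)
    · exact hsmall (by omega)
    · have hall : ¬ ∀ x ∈ R, ∀ y ∈ R, y ∈ orb (P : Subgroup (Perm α)) x := fun hall => by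
        rcases hS.single.mp hall with e | ⟨r, e⟩
        · rw [e, Finset.card_empty] at hcR; omega
        · exact hr r (by rw [← hcR, e])
      obtain ⟨T1, T2, t1, t2, ht⟩ := hS.decomposable_pair (by omega) hall
      rw [← hP] at ht
      have e : ∀ U : Subgroup (Perm α), U ≤ (S : Subgroup (alternatingGroup α)).map f → U.comap f = ⊥ → U = ⊥ :=
        fun U hU hbot => by
          rw [← Subgroup.map_comap_eq_self (hU.trans (Subgroup.map_le_range f _)), hbot, Subgroup.map_bot]
      exact ⟨T1.comap f, T2.comap f, fun h => t1 (e T1 ht.1 h), fun h => t2 (e T2 ht.2.1 h),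
        idp_comap f hf _ T1 T2 ht⟩

end CfsgLib.SymSylow54
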