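import Cfsg.Agent.SymSylow.Quads
import Cfsg.Agent.SymSylow.Normalizer
import Cfsg.Agent.PGroup.Normal

/-!
Centralizers in a transitive Sylow 2-subgroup of a symmetric group and in its even part.
-/

set_option autoImplicit false

namespace CfsgLib.SymSylow54

open Equiv CfsgLib.SymSylow

variable {α : Type*} [DecidableEq α] [Fintype α]

theorem res_onSet_disjoint {t u : Finset α} (h : Disjoint t u) {g : Perm α} (hg : g ∈ onSet u) :
    res t g = 1 := by
  ext x
  by_cases hx : x ∈ t
  · rw [res_apply_of_mem (onSet_le_keeps_of_disjoint h hg) hx,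
      hg x (Finset.disjoint_left.mp h hx)]; rfl
  · rw [res_apply_of_notMem _ _ hx]; rfl

theorem res_inv {t : Finset α} {g : Perm α} (hg : g ∈ keeps t) : res t g⁻¹ = (res t g)⁻¹ :=
  eq_inv_of_mul_eq_one_left (by rw [← res_mul (inv_mem hg) hg, inv_mul_cancel, res_one])

/-- An element supported on an invariant set commutes with an element iff it commutes with its
restriction. -/
theorem commute_of_res {t : Finset α} {c g : Perm α} (hc : c ∈ onSet t) (hg : g ∈ keeps t)
    (h : c * res t g = res t g * c) : c * g = g * c := by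
  ext x
  rw [Perm.mul_apply, Perm.mul_apply]
  by_cases hx : x ∈ t
  · have h' := Perm.congr_fun h x
    rw [Perm.mul_apply, Perm.mul_apply, res_apply_of_mem hg hx,
      res_apply_of_mem hg ((onSet_le_keeps t hc x).mpr hx)] at h'
    exact h'
  · rw [hc x hx, hc _ (fun h' => hx ((hg x).mp h'))]

theorem eq_res_mul_res {O O1 O2 : Finset α} {P : Subgroup (Perm α)} (H : Halves O P O1 O2)
    {g : Perm α} (hg : g ∈ onSet O) (hk : g ∈ keeps O1) : res O1 g * res O2 g = g := by
  have h : O \ O1 = O2 := by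
    rw [← H.union, Finset.union_sdiff_left, Finset.sdiff_eq_self_of_disjoint H.disj.symm]
  rw [← h]
  exact res_mul_res_sdiff H.subset₁ hg hk

theorem keeps₂ {O O1 O2 : Finset α} {P : Subgroup (Perm α)} (H : Halves O P O1 O2) {g : Perm α}
    (hg : g ∈ P) (hk : g ∈ keeps O1) : g ∈ keeps O2 := by
  rcases H.keep_or_swap g hg with h | h
  · exact h.2
  · obtain ⟨x, hx⟩ := H.nonempty
    exact absurd ((hk x).mpr hx) (Finset.disjoint_right.mp H.disj (h.1 x hx))

theorem card_halves {O O1 O2 : Finset α} {P : Subgroup (Perm α)} (H : Halves O P O1 O2) :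
    O.card = 2 * O1.card := by
  rw [← H.union, Finset.card_union_of_disjoint H.disj, ← H.card_eq, two_mul]

theorem exists_ne_one {O : Finset α} {P : Subgroup (Perm α)}
    (htr : ∀ x ∈ O, ∀ y ∈ O, ∃ g ∈ P, g x = y) (hO : 2 ≤ O.card) : ∃ g ∈ P, g ≠ 1 := by
  obtain ⟨a, ha, b, hb, hab⟩ := Finset.one_lt_card.mp hO
  obtain ⟨g, hg, hgab⟩ := htr a ha b hb
  exact ⟨g, hg, fun e => hab (by rw [← hgab, e, Perm.one_apply])⟩

/-- Central elements keep the halves. -/
theorem keeps_of_commute_left {O O1 O2 : Finset α} {P : Subgroup (Perm α)} (H : Halves O P O1 O2)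
    {c w : Perm α} (hc : c ∈ P) (hw : w ∈ P ⊓ onSet O1) (hw1 : w ≠ 1) (hcw : c * w = w * c) :
    c ∈ keeps O1 := by
  rcases H.keep_or_swap c hc with h | h
  · exact h.1
  · exfalso
    apply hw1
    ext x
    by_cases hx : x ∈ O1
    · have h' := Perm.congr_fun hcw x
      rw [Perm.mul_apply, Perm.mul_apply, hw.2 _ (Finset.disjoint_right.mp H.disj (h.1 x hx))] at h'
      exact c.injective h'
    · exact hw.2 x hx

theorem center_unique : ∀ (n : ℕ) (O : Finset α) (P : Subgroup (Perm α)), O.card = n →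
    IsSylowOn 2 O P → (∀ x ∈ O, ∀ y ∈ O, ∃ g ∈ P, g x = y) → 2 ≤ O.card →
    ∀ c ∈ P, c ≠ 1 → (∀ w ∈ P, c * w = w * c) → ∀ d ∈ P, d ≠ 1 → (∀ w ∈ P, d * w = w * d) → c = d := by
  intro n
  induction n using Nat.strong_induction_on with
  | h n ih =>
    intro O P hn hP htr h2 c hc hc1 hcc d hd hd1 hdc
    rcases Nat.lt_or_ge O.card 3 with h3 | h3
    · obtain ⟨a, b, hab, rfl⟩ := Finset.card_eq_two.mp (show O.card = 2 by omega)
      have key : ∀ g ∈ P, g ≠ 1 → g = Equiv.swap a b := by
        intro g hg hg1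
        have hk := onSet_le_keeps _ (hP.le hg)
        have ha : g a = a ∨ g a = b := by simpa using (hk a).mpr (Finset.mem_insert_self a _)
        have hb : g b = a ∨ g b = b := by simpa using (hk b).mpr (Finset.mem_insert_of_mem (Finset.mem_singleton_self b))
        ext x
        by_cases hxa : x = a
        · subst hxa
          rw [Equiv.swap_apply_left]
          rcases ha with ha | ha
          · exfalso; apply hg1
            ext y
            by_cases hy : y = x
            · rw [hy, ha]; rfl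
            by_cases hy' : y = b
            · rcases hb with hb | hb
              · exact absurd (g.injective (ha.trans hb.symm)) hab
              · rw [hy', hb]; rfl
            · exact hP.le hg y (by simp [hy, hy'])
          · exact ha
        by_cases hxb : x = b
        · subst hxb
          rw [Equiv.swap_apply_right]
          rcases hb with hb | hb
          · exact hb
          · exfalso; apply hg1
            ext y
            by_cases hy : y = x
            · rw [hy, hb]; rfl
            by_cases hy' : y = a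
            · rcases ha with ha | ha
              · rw [hy', ha]; rfl
              · exact absurd (g.injective (ha.trans hb.symm)) hab
            · exact hP.le hg y (by simp [hy, hy'])
        rw [Equiv.swap_apply_of_ne_of_ne hxa hxb]
        exact hP.le hg x (by simp [hxa, hxb])
      rw [key c hc hc1, key d hd hd1]
    obtain ⟨O1, O2, H⟩ := hP.exists_halves htr h2
    have hcard := card_halves H
    have h21 : 2 ≤ O1.card := by omega
    obtain ⟨w, hw, hw1⟩ := exists_ne_one H.trans₁ h21
    obtain ⟨s, hs, hsa, -⟩ := H.exists_swap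
    have main : ∀ e ∈ P, e ≠ 1 → (∀ w ∈ P, e * w = w * e) →
        e ∈ keeps O1 ∧ res O1 e ∈ P ⊓ onSet O1 ∧ res O1 e ≠ 1 ∧
          ∀ v ∈ P ⊓ onSet O1, res O1 e * v = v * res O1 e := by
      intro e he he1 hec
      have hk := keeps_of_commute_left H he hw hw1 (hec w hw.1)
      refine ⟨hk, ⟨H.res_mem₁ e he hk, res_mem_onSet _ _⟩, fun h1 => he1 ?_, fun v hv => ?_⟩
      · ext x
        by_cases hx : x ∈ O1
        · rw [← res_apply_of_mem hk hx, h1]
        · by_cases hxO : x ∈ O
          · have hx2 : x ∈ O2 := (Finset.mem_union.mp (H.union ▸ hxO)).resolve_left hx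
            obtain ⟨y, hy, rfl⟩ : ∃ y ∈ O1, s y = x := by
              have himg : O1.image s = O2 := Finset.eq_of_subset_of_card_le
                (fun z hz => by obtain ⟨y, hy, rfl⟩ := Finset.mem_image.mp hz; exact hsa y hy)
                (by rw [Finset.card_image_of_injective _ s.injective, H.card_eq])
              rw [← himg] at hx2
              exact Finset.mem_image.mp hx2
            rw [← Perm.mul_apply, hec s hs, Perm.mul_apply, ← res_apply_of_mem hk hy, h1]
            rfl
          · exact hP.le he x hxO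
      · rw [← res_of_mem_onSet hv.2, ← res_mul hk (onSet_le_keeps _ hv.2), hec v hv.1,
          res_mul (onSet_le_keeps _ hv.2) hk]
    obtain ⟨kc, mc, nc, cc⟩ := main c hc hc1 hcc
    obtain ⟨kd, md, nd, cd⟩ := main d hd hd1 hdc
    have h1 : res O1 c = res O1 d :=
      ih O1.card (by omega) O1 _ rfl H.sylow₁ H.trans₁ h21 _ mc nc cc _ md nd cd
    by_contra hne
    obtain ⟨-, -, n1, -⟩ := main (c * d⁻¹) (P.mul_mem hc (P.inv_mem hd))
      (fun e => hne (mul_inv_eq_one.mp e)) (fun w hw => by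
        have hd' : d⁻¹ * w = w * d⁻¹ := by
          rw [eq_mul_inv_iff_mul_eq, mul_assoc, ← hdc w hw, inv_mul_cancel_left]
        rw [mul_assoc, hd', ← mul_assoc, hcc w hw, mul_assoc])
    exact n1 (by rw [res_mul kc (inv_mem kd), res_inv kd, h1, mul_inv_cancel])

variable {O : Finset α} {P : Subgroup (Perm α)}

/-- An element centralizing the even part and keeping the halves is central. -/
theorem keep_central {O1 O2 : Finset α} (hP : IsSylowOn 2 O P) (H : Halves O P O1 O2)
    (h2 : 2 ≤ O1.card) {c : Perm α} (hc : c ∈ P) (hk : c ∈ keeps O1)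
    (hcA : ∀ a ∈ P, Perm.sign a = 1 → c * a = a * c) : ∀ w ∈ P, c * w = w * c := by
  obtain ⟨e1, he1, hs1⟩ := H.sylow₁.exists_sign_neg h2
  obtain ⟨e2, he2, hs2⟩ := H.sylow₂.exists_sign_neg (H.card_eq ▸ h2)
  have side : ∀ {U V : Finset α}, Disjoint U V → c ∈ keeps U → ∀ e ∈ P ⊓ onSet V,
      Perm.sign e = -1 → ∀ v ∈ P ⊓ onSet U, res U c * v = v * res U c := by
    intro U V hUV hcU e he hes v hv
    obtain ⟨a, haP, has, hak, har⟩ : ∃ a ∈ P, Perm.sign a = 1 ∧ a ∈ keeps U ∧ res U a = v := by
      rcases Int.units_eq_one_or (Perm.sign v) with h | h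
      · exact ⟨v, hv.1, h, onSet_le_keeps _ hv.2, res_of_mem_onSet hv.2⟩
      · refine ⟨v * e, P.mul_mem hv.1 he.1, by rw [map_mul, h, hes]; decide,
          mul_mem (onSet_le_keeps _ hv.2) (onSet_le_keeps_of_disjoint hUV he.2), ?_⟩
        rw [res_mul (onSet_le_keeps _ hv.2) (onSet_le_keeps_of_disjoint hUV he.2),
          res_of_mem_onSet hv.2, res_onSet_disjoint hUV he.2, mul_one]
    rw [← har, ← res_mul hcU hak, hcA a haP has, res_mul hak hcU]
  have hk2 := keeps₂ H hc hk
  have hkeep : ∀ w ∈ P, w ∈ keeps O1 → c * w = w * c := by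
    intro w hw hwk
    have hwk2 := keeps₂ H hw hwk
    rw [← eq_res_mul_res H (hP.le (P.mul_mem hc hw)) (mul_mem hk hwk),
      ← eq_res_mul_res H (hP.le (P.mul_mem hw hc)) (mul_mem hwk hk),
      res_mul hk hwk, res_mul hwk hk, res_mul hk2 hwk2, res_mul hwk2 hk2,
      side H.disj hk e2 he2 hs2 _ ⟨H.res_mem₁ w hw hwk, res_mem_onSet _ _⟩,
      side H.disj.symm hk2 e1 he1 hs1 _ ⟨H.res_mem₂ w hw hwk, res_mem_onSet _ _⟩]
  obtain ⟨s, hs, hsa, hsb⟩ : ∃ s ∈ P, Perm.sign s = 1 ∧ ∀ x ∈ O1, s x ∈ O2 := by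
    obtain ⟨s, hs, hsa, -⟩ := H.exists_swap
    rcases Int.units_eq_one_or (Perm.sign s) with h | h
    · exact ⟨s, hs, h, hsa⟩
    · exact ⟨s * e1, P.mul_mem hs he1.1, by rw [map_mul, h, hs1]; decide,
        fun x hx => hsa _ ((onSet_le_keeps O1 he1.2 x).mpr hx)⟩
  intro w hw
  rcases H.keep_or_swap w hw with h | h
  · exact hkeep w hw h.1
  · have hws : w * s ∈ keeps O1 := keeps_of_mapsTo fun x hx => h.2 _ (hsb x hx)
    have e := hkeep _ (P.mul_mem hw hs) hws
    have es := hcA s hs hsa
    calc c * w = c * (w * s) * s⁻¹ := by group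
      _ = w * (s * c) * s⁻¹ := by rw [e]; group
      _ = w * (c * s) * s⁻¹ := by rw [es]
      _ = w * c := by group

/-- The centralizer of the even part is commutative. -/
theorem centralizer_even_comm (hP : IsSylowOn 2 O P) (htr : ∀ x ∈ O, ∀ y ∈ O, ∃ g ∈ P, g x = y)
    (h4 : 4 ≤ O.card) {c d : Perm α} (hc : c ∈ P) (hd : d ∈ P)
    (hcA : ∀ a ∈ P, Perm.sign a = 1 → c * a = a * c)
    (hdA : ∀ a ∈ P, Perm.sign a = 1 → d * a = a * d) : c * d = d * c := by
  obtain ⟨O1, O2, H⟩ := hP.exists_halves htr (by omega)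
  have hcard := card_halves H
  have h2 : 2 ≤ O1.card := by omega
  rcases H.keep_or_swap c hc with h | h
  · exact keep_central hP H h2 hc h.1 hcA d hd
  rcases H.keep_or_swap d hd with h' | h'
  · exact (keep_central hP H h2 hd h'.1 hdA c hc).symm
  have hk : c * d ∈ keeps O1 := keeps_of_mapsTo fun x hx => h.2 _ (h'.1 x hx)
  have e := keep_central hP H h2 (P.mul_mem hc hd) hk
    (fun a ha hs => by rw [mul_assoc, hdA a ha hs, ← mul_assoc, hcA a ha hs, mul_assoc]) c hc
  rw [mul_assoc] at e
  exact (mul_left_cancel e).symm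

theorem exists_center (hP : IsSylowOn 2 O P) (htr : ∀ x ∈ O, ∀ y ∈ O, ∃ g ∈ P, g x = y)
    (h4 : 4 ≤ O.card) :
    ∃ z ∈ P, z ≠ 1 ∧ Perm.sign z = 1 ∧ (∀ w ∈ P, z * w = w * z) ∧
      ∀ c ∈ P, (∀ w ∈ P, c * w = w * c) → c = 1 ∨ c = z := by
  obtain ⟨z, hz, -, hzf, hzc⟩ := hP.exists_central_involution htr (by omega)
  have hz1 : z ≠ 1 := by
    rintro rfl
    obtain ⟨a, ha⟩ := Finset.card_pos.mp (show 0 < O.card by omega)
    exact hzf a ha rfl
  refine ⟨z, hz, hz1, ?_, hzc, fun c hc hcc => ?_⟩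
  · obtain ⟨O1, O2, H⟩ := hP.exists_halves htr (by omega)
    have hcard := card_halves H
    obtain ⟨w, hw, hw1⟩ := exists_ne_one H.trans₁ (show 2 ≤ O1.card by omega)
    have hk := keeps_of_commute_left H hz hw hw1 (hzc w hw.1)
    obtain ⟨s, hs, hsa, hsb⟩ := H.exists_swap
    have hk2 := keeps₂ H hz hk
    have e : s * res O1 z * s⁻¹ = res O2 z := by
      ext x
      rw [Perm.mul_apply, Perm.mul_apply]
      by_cases hx : x ∈ O2
      · have hy : s⁻¹ x ∈ O1 := by
          have himg : O1.image s = O2 := Finset.eq_of_subset_of_card_le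
            (fun z hz => by obtain ⟨y, hy, rfl⟩ := Finset.mem_image.mp hz; exact hsa y hy)
            (by rw [Finset.card_image_of_injective _ s.injective, H.card_eq])
          rw [← himg] at hx
          obtain ⟨y, hy, rfl⟩ := Finset.mem_image.mp hx
          simpa using hy
        rw [res_apply_of_mem hk hy, res_apply_of_mem hk2 hx, ← Perm.mul_apply, ← Perm.mul_apply,
          ← hzc s hs]
        simp
      · rw [res_apply_of_notMem _ _ hx, res_apply_of_notMem _ _ (fun h => hx (by simpa using hsa _ h))]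
        simp
    rw [← eq_res_mul_res H (hP.le hz) hk, ← e, map_mul, map_mul, map_mul, map_inv]
    rcases Int.units_eq_one_or (Perm.sign (res O1 z)) with h | h <;>
      rcases Int.units_eq_one_or (Perm.sign s) with h' | h' <;> simp [h, h']
  · by_cases hc1 : c = 1
    · exact Or.inl hc1
    · exact Or.inr (center_unique _ O P rfl hP htr (by omega) c hc hc1 hcc z hz hz1 hzc)

/-- On at least eight points the centralizer of the even part is the centre. -/
theorem central_of_centralizes_even (hP : IsSylowOn 2 O P)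
    (htr : ∀ x ∈ O, ∀ y ∈ O, ∃ g ∈ P, g x = y) (h8 : 8 ≤ O.card) {c : Perm α} (hc : c ∈ P)
    (hcA : ∀ a ∈ P, Perm.sign a = 1 → c * a = a * c) : ∀ w ∈ P, c * w = w * c := by
  obtain ⟨O1, O2, H⟩ := hP.exists_halves htr (by omega)
  have hcard := card_halves H
  obtain ⟨z, hz, hz1, hzs, -, -⟩ := exists_center H.sylow₁ H.trans₁ (by omega)
  exact keep_central hP H (by omega) hc (keeps_of_commute_left H hc hz hz1 (hcA z hz.1 hzs)) hcA

/-- A non-trivial normal subgroup of a transitive Sylow subgroup contains the central involution. -/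
theorem center_mem_normal (hP : IsSylowOn 2 O P) (htr : ∀ x ∈ O, ∀ y ∈ O, ∃ g ∈ P, g x = y)
    (h4 : 4 ≤ O.card) {z : Perm α} (hz : z ∈ P) (hz1 : z ≠ 1) (hzc : ∀ w ∈ P, z * w = w * z)
    {N : Subgroup (Perm α)} (hNP : N ≤ P) (hN : N ≠ ⊥)
    (hnorm : ∀ w ∈ P, ∀ x ∈ N, w * x * w⁻¹ ∈ N) : z ∈ N := by
  haveI : (N.subgroupOf P).Normal := ⟨fun x hx g => hnorm g g.2 x hx⟩
  have hne : N.subgroupOf P ≠ ⊥ := fun h =>
    hN (eq_bot_iff.mpr fun x hx => by
      have hm : (⟨x, hNP hx⟩ : P) ∈ N.subgroupOf P := hx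
      rw [h, Subgroup.mem_bot] at hm
      exact Subgroup.mem_bot.mpr (congrArg Subtype.val hm))
  have := PGroup.inf_center_ne_bot hP.isPGroup (N.subgroupOf P) hne
  obtain ⟨c, hc, hc1⟩ := (Subgroup.ne_bot_iff_exists_ne_one).mp this |>.imp fun c h => And.intro c.2 h
  have hcc : ∀ w ∈ P, ((c : P) : Perm α) * w = w * ((c : P) : Perm α) := fun w hw =>
    (congrArg Subtype.val (Subgroup.mem_center_iff.mp hc.2 ⟨w, hw⟩)).symm
  have hne1 : ((c : P) : Perm α) ≠ 1 := fun e => hc1 (Subtype.ext (Subtype.ext e))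
  rw [← center_unique _ O P rfl hP htr (by omega) _ (c : P).2 hne1 hcc z hz hz1 hzc]
  exact hc.1

end CfsgLib.SymSylow54
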