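import Cfsg.Prelude.Def_TwoFusion
import Cfsg.Agent.SymSylow54.Orbit

/-!
Direct decompositions of Sylow 2-subgroups of alternating groups.
-/

set_option autoImplicit false

namespace CfsgLib.SymSylow54

open Equiv Cfsg CfsgLib.SymSylow

section Abstract

variable {G : Type*} [Group G]

theorem idp_exists {S1 S2 S : Subgroup G} (h : IsInternalDirectProduct S1 S2 S) {x : G}
    (hx : x ∈ S) : ∃ a ∈ S1, ∃ b ∈ S2, x = a * b := by
  obtain ⟨h1, h2, hc, -, hsup⟩ := h
  let M : Subgroup G :=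
    { carrier := {x | ∃ a ∈ S1, ∃ b ∈ S2, x = a * b}
      one_mem' := ⟨1, S1.one_mem, 1, S2.one_mem, (one_mul 1).symm⟩
      mul_mem' := by
        rintro _ _ ⟨a, ha, b, hb, rfl⟩ ⟨a', ha', b', hb', rfl⟩
        refine ⟨a * a', S1.mul_mem ha ha', b * b', S2.mul_mem hb hb', ?_⟩
        rw [mul_assoc, ← mul_assoc b, ← hc a' ha' b hb, mul_assoc, mul_assoc]
      inv_mem' := by
        rintro _ ⟨a, ha, b, hb, rfl⟩
        exact ⟨a⁻¹, S1.inv_mem ha, b⁻¹, S2.inv_mem hb, by
          rw [mul_inv_rev, hc _ (S1.inv_mem ha) _ (S2.inv_mem hb)]⟩ }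
  have hle : S1 ⊔ S2 ≤ M := sup_le (fun a ha => ⟨a, ha, 1, S2.one_mem, (mul_one a).symm⟩)
    (fun b hb => ⟨1, S1.one_mem, b, hb, (one_mul b).symm⟩)
  exact hle (hsup ▸ hx)

theorem idp_unique {S1 S2 S : Subgroup G} (h : IsInternalDirectProduct S1 S2 S) {a a' b b' : G}
    (ha : a ∈ S1) (ha' : a' ∈ S1) (hb : b ∈ S2) (hb' : b' ∈ S2) (he : a * b = a' * b') :
    a = a' ∧ b = b' := by
  have e : a'⁻¹ * a = b' * b⁻¹ := by
    rw [inv_mul_eq_iff_eq_mul, ← mul_assoc, ← he, mul_assoc, mul_inv_cancel, mul_one]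
  have hm : a'⁻¹ * a ∈ S1 ⊓ S2 :=
    ⟨S1.mul_mem (S1.inv_mem ha') ha, e ▸ S2.mul_mem hb' (S2.inv_mem hb)⟩
  rw [h.2.2.2.1, Subgroup.mem_bot, inv_mul_eq_one] at hm
  exact ⟨hm.symm, by rw [hm] at he; exact mul_left_cancel he⟩

theorem idp_conj_mem {S1 S2 S : Subgroup G} (h : IsInternalDirectProduct S1 S2 S) {e x : G}
    (he : e ∈ S) (hx : x ∈ S1) : e * x * e⁻¹ ∈ S1 := by
  obtain ⟨a, ha, b, hb, rfl⟩ := idp_exists h he
  have hxb : b * x = x * b := (h.2.2.1 x hx b hb).symm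
  have e' : a * b * x * (a * b)⁻¹ = a * x * a⁻¹ := by
    rw [mul_inv_rev, mul_assoc a b x, hxb]; group
  rw [e']
  exact S1.mul_mem (S1.mul_mem ha hx) (S1.inv_mem ha)

theorem idp_symm {S1 S2 S : Subgroup G} (h : IsInternalDirectProduct S1 S2 S) :
    IsInternalDirectProduct S2 S1 S :=
  ⟨h.2.1, h.1, fun a ha b hb => (h.2.2.1 b hb a ha).symm, by rw [inf_comm]; exact h.2.2.2.1,
    by rw [sup_comm]; exact h.2.2.2.2⟩

/-- The criterion through a unique central involution. -/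
theorem no_decomposition {S1 S2 S : Subgroup G} [Finite S] (hp : IsPGroup 2 S)
    (h : IsInternalDirectProduct S1 S2 S) {z : G}
    (hz : ∀ c ∈ S, (∀ w ∈ S, c * w = w * c) → c = 1 ∨ c = z) (h1 : S1 ≠ ⊥) (h2 : S2 ≠ ⊥) : False := by
  have key : ∀ T1 T2 : Subgroup G, IsInternalDirectProduct T1 T2 S → T1 ≠ ⊥ → z ∈ T1 ∧ z ≠ 1 := by
    intro T1 T2 h h1
    haveI : (T1.subgroupOf S).Normal := ⟨fun x hx g => idp_conj_mem h g.2 hx⟩
    have hne : T1.subgroupOf S ≠ ⊥ := fun e => h1 (eq_bot_iff.mpr fun x hx => by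
      have hm : (⟨x, h.1 hx⟩ : S) ∈ T1.subgroupOf S := hx
      rw [e, Subgroup.mem_bot] at hm
      exact Subgroup.mem_bot.mpr (congrArg Subtype.val hm))
    obtain ⟨c, hc1⟩ := Subgroup.ne_bot_iff_exists_ne_one.mp (PGroup.inf_center_ne_bot hp _ hne)
    have hc : ((c : S) : G) ∈ T1 := c.2.1
    have hne1 : ((c : S) : G) ≠ 1 := fun e => hc1 (Subtype.ext (Subtype.ext e))
    rcases hz _ (c : S).2 (fun w hw =>
      (congrArg Subtype.val (Subgroup.mem_center_iff.mp c.2.2 ⟨w, hw⟩)).symm) with e | e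
    · exact absurd e hne1
    · exact ⟨e ▸ hc, e ▸ hne1⟩
  obtain ⟨m1, hz1⟩ := key S1 S2 h h1
  obtain ⟨m2, -⟩ := key S2 S1 (idp_symm h) h2
  have : z ∈ S1 ⊓ S2 := ⟨m1, m2⟩
  rw [h.2.2.2.1, Subgroup.mem_bot] at this
  exact hz1 this

end Abstract

variable {α : Type*} [DecidableEq α] [Fintype α] {s : Finset α} {P : Subgroup (Perm α)}

/-- The Sylow subgroup on an orbit. -/
theorem orbit_props (hP : IsSylowOn 2 s P) {x : α} (hx : x ∈ s) :
    IsSylowOn 2 (orb P x) (P ⊓ onSet (orb P x)) ∧ (∀ g ∈ P, res (orb P x) g ∈ P ⊓ onSet (orb P x)) ∧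
      ∀ a ∈ orb P x, ∀ b ∈ orb P x, ∃ g ∈ P ⊓ onSet (orb P x), g a = b := by
  have hPs : P ≤ keeps s := hP.le.trans (onSet_le_keeps s)
  obtain ⟨r1, -, s1, -⟩ := hP.split (orb_subset hPs hx) (le_keeps_orb P x)
  refine ⟨s1, fun g hg => ⟨r1 g hg, res_mem_onSet _ _⟩, fun a ha b hb => ?_⟩
  obtain ⟨g, hg, hgab⟩ := exists_map_of_mem_orb ha hb
  exact ⟨res (orb P x) g, ⟨r1 g hg, res_mem_onSet _ _⟩,
    by rw [res_apply_of_mem (le_keeps_orb P x hg) ha, hgab]⟩

/-- An element lies in a subgroup when all its restrictions to orbits do. -/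
theorem mem_of_res (hP : IsSylowOn 2 s P) (K : Subgroup (Perm α)) :
    ∀ (n : ℕ) (g : Perm α), g ∈ P → g.support.card = n →
      (∀ x ∈ g.support, res (orb P x) g ∈ K) → g ∈ K := by
  intro n
  induction n using Nat.strong_induction_on with
  | h n ih =>
    intro g hg hn hK
    rcases Finset.eq_empty_or_nonempty g.support with h | ⟨x, hx⟩
    · rw [Perm.support_eq_empty_iff] at h; rw [h]; exact K.one_mem
    have hxs : x ∈ s := by
      by_contra h
      exact Perm.mem_support.mp hx (hP.le hg x h)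
    set O := orb P x
    obtain ⟨-, hres, -⟩ := orbit_props hP hxs
    have hk : g ∈ keeps O := le_keeps_orb P x hg
    set r := res O g with hr
    have hrK : r ∈ K := hK x hx
    set g' := g * r⁻¹ with hg'
    have hin : ∀ y ∈ O, g' y = y := by
      intro y hy
      have hk' : r ∈ keeps O := onSet_le_keeps O (res_mem_onSet _ _)
      have hy' : r⁻¹ y ∈ O := (inv_mem hk' y).mpr hy
      calc g' y = g (r⁻¹ y) := rfl
        _ = r (r⁻¹ y) := (res_apply_of_mem hk hy').symm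
        _ = y := Equiv.apply_symm_apply r y
    have hout : ∀ y, y ∉ O → g' y = g y := by
      intro y hy
      have e : r⁻¹ y = y := Perm.inv_eq_iff_eq.mpr (res_apply_of_notMem _ g hy).symm
      rw [hg', Perm.mul_apply, e]
    have hlt : g'.support.card < n := by
      rw [← hn]
      refine Finset.card_lt_card ⟨fun y hy => ?_, fun hh => ?_⟩
      · rw [Perm.mem_support] at hy ⊢
        by_cases hyO : y ∈ O
        · exact absurd (hin y hyO) hy
        · rwa [hout y hyO] at hy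
      · exact Perm.mem_support.mp (hh hx) (hin x (self_mem_orb P x))
    have hg'P : g' ∈ P := P.mul_mem hg (P.inv_mem (hres g hg).1)
    have := ih _ hlt g' hg'P rfl fun y hy => ?_
    · have e : g = g' * r := by rw [hg', inv_mul_cancel_right]
      rw [e]; exact K.mul_mem this hrK
    · have hyO : y ∉ O := fun h => Perm.mem_support.mp hy (hin y h)
      have hygs : y ∈ g.support := by
        rw [Perm.mem_support, ← hout y hyO]; exact Perm.mem_support.mp hy
      have hd : Disjoint (orb P y) O := Finset.disjoint_left.mpr fun t ht ht' =>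
        hyO (by rw [show O = orb P x from rfl, ← orb_eq_of_mem ht', orb_eq_of_mem ht]; exact self_mem_orb P y)
      rw [hg', res_mul (le_keeps_orb P y hg)
          (inv_mem (onSet_le_keeps_of_disjoint hd (res_mem_onSet _ _))),
        res_inv (onSet_le_keeps_of_disjoint hd (res_mem_onSet _ _)),
        res_onSet_disjoint hd (res_mem_onSet _ _), inv_one, mul_one]
      exact hK y hygs

/-- With one orbit, of at least eight points, the even part is indecomposable. -/
theorem indecomposable_transitive {O : Finset α} (hP : IsSylowOn 2 O P)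
    (htr : ∀ x ∈ O, ∀ y ∈ O, ∃ g ∈ P, g x = y) (h8 : 8 ≤ O.card) {S1 S2 : Subgroup (Perm α)}
    (h : IsInternalDirectProduct S1 S2 (evenPart P)) (h1 : S1 ≠ ⊥) (h2 : S2 ≠ ⊥) : False := by
  obtain ⟨z, -, -, -, -, hz⟩ := exists_center hP htr (by omega)
  refine no_decomposition (hP.isPGroup.to_le inf_le_left) h (z := z) (fun c hc hcc => ?_) h1 h2
  exact hz c hc.1 (central_of_centralizes_even hP htr h8 hc.1 fun a ha hs => hcc a ⟨ha, hs⟩)

/-- With several orbits, all of at least four points, the even part is indecomposable. -/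
theorem indecomposable_several (hP : IsSylowOn 2 s P)
    (h4 : ∀ x ∈ s, 2 ≤ (orb P x).card → 4 ≤ (orb P x).card)
    (hsev : ∀ x ∈ s, ∃ y ∈ s, 2 ≤ (orb P y).card ∧ Disjoint (orb P x) (orb P y))
    {S1 S2 : Subgroup (Perm α)}
    (h : IsInternalDirectProduct S1 S2 (evenPart P)) (h1 : S1 ≠ ⊥) (h2 : S2 ≠ ⊥) : False := by
  set E := evenPart P with hE
  have hlift : ∀ x ∈ s, ∀ w ∈ P ⊓ onSet (orb P x), ∃ e ∈ E, res (orb P x) e = w := by
    intro x hx w hw
    rcases Int.units_eq_one_or (Perm.sign w) with hs | hs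
    · exact ⟨w, ⟨hw.1, hs⟩, res_of_mem_onSet hw.2⟩
    obtain ⟨y, hy, hy2, hd⟩ := hsev x hx
    obtain ⟨f, hf, hfs⟩ := (orbit_props hP hy).1.exists_sign_neg hy2
    refine ⟨w * f, ⟨P.mul_mem hw.1 hf.1, ?_⟩, ?_⟩
    · change Perm.sign (w * f) = 1
      rw [map_mul, hs, hfs]; decide
    · rw [res_mul (le_keeps_orb P x hw.1) (le_keeps_orb P x hf.1), res_of_mem_onSet hw.2,
        res_onSet_disjoint hd hf.2, mul_one]
  have hbig : ∀ x ∈ s, (∃ g ∈ P, g x ≠ x) → 2 ≤ (orb P x).card := by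
    rintro x - ⟨g, hg, hgx⟩
    exact Finset.one_lt_card.mpr ⟨g x, mem_orb.mpr ⟨g, hg, rfl⟩, x, self_mem_orb P x, hgx⟩
  -- the central involution of each orbit lies in one of the factors
  have colour : ∀ x ∈ s, 4 ≤ (orb P x).card → ∃ z ∈ P ⊓ onSet (orb P x), z ≠ 1 ∧ Perm.sign z = 1 ∧
      (∀ c ∈ P ⊓ onSet (orb P x), (∀ w ∈ P ⊓ onSet (orb P x), c * w = w * c) → c = 1 ∨ c = z) ∧
      (∀ w ∈ P ⊓ onSet (orb P x), z * w = w * z) ∧ (z ∈ S1 ∨ z ∈ S2) := by
    intro x hx hx4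
    obtain ⟨hW, hres, htr⟩ := orbit_props hP hx
    obtain ⟨z, hz, hz1, hzs, hzc, hzu⟩ := exists_center hW htr hx4
    refine ⟨z, hz, hz1, hzs, hzu, hzc, ?_⟩
    have hzE : z ∈ E := ⟨hz.1, hzs⟩
    obtain ⟨a, ha, b, hb, hab⟩ := idp_exists h hzE
    -- elements whose first component is supported on the orbit
    let M : Subgroup (Perm α) :=
      { carrier := {e | ∃ a ∈ S1, ∃ b ∈ S2, e = a * b ∧ a ∈ onSet (orb P x)}
        one_mem' := ⟨1, S1.one_mem, 1, S2.one_mem, (one_mul 1).symm, (onSet _).one_mem⟩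
        mul_mem' := by
          rintro _ _ ⟨a, ha, b, hb, rfl, hao⟩ ⟨a', ha', b', hb', rfl, hao'⟩
          refine ⟨a * a', S1.mul_mem ha ha', b * b', S2.mul_mem hb hb', ?_, (onSet _).mul_mem hao hao'⟩
          rw [mul_assoc, ← mul_assoc b, ← h.2.2.1 a' ha' b hb, mul_assoc, mul_assoc]
        inv_mem' := by
          rintro _ ⟨a, ha, b, hb, rfl, hao⟩
          exact ⟨a⁻¹, S1.inv_mem ha, b⁻¹, S2.inv_mem hb, by
            rw [mul_inv_rev, h.2.2.1 _ (S1.inv_mem ha) _ (S2.inv_mem hb)], (onSet _).inv_mem hao⟩ }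
    let K := Subgroup.closure {t | ∃ u ∈ E ⊓ onSet (orb P x), ∃ e ∈ E, t = u * e * u⁻¹ * e⁻¹}
    have hconjO : ∀ g ∈ P, ∀ u ∈ onSet (orb P x), g * u * g⁻¹ ∈ onSet (orb P x) := by
      intro g hg u hu y hy
      have : g⁻¹ y ∉ orb P x := fun h' => hy (by
        simpa using ((le_keeps_orb P x hg) (g⁻¹ y)).mpr h')
      rw [Perm.mul_apply, Perm.mul_apply, hu _ this]
      simp
    have hconjE : ∀ g ∈ P, ∀ u ∈ E, g * u * g⁻¹ ∈ E := by
      intro g hg u hu
      refine ⟨P.mul_mem (P.mul_mem hg hu.1) (P.inv_mem hg), ?_⟩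
      change Perm.sign _ = 1
      rw [map_mul, map_mul, map_inv, show Perm.sign u = 1 from hu.2, mul_one, mul_inv_cancel]
    have hKM : K ≤ M := (Subgroup.closure_le M).mpr (by
      rintro _ ⟨u, hu, e, he, rfl⟩
      obtain ⟨u1, hu1, u2, hu2, rfl⟩ := idp_exists h hu.1
      obtain ⟨e1, he1, e2, he2, rfl⟩ := idp_exists h he
      have c : ∀ p ∈ S1, ∀ q ∈ S2, Commute p q := fun p hp q hq => h.2.2.1 p hp q hq
      have split : ∀ u1 ∈ S1, ∀ e1 ∈ S1, ∀ u2 ∈ S2, ∀ e2 ∈ S2,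
          u1 * u2 * (e1 * e2) * (u1 * u2)⁻¹ * (e1 * e2)⁻¹ =
            (u1 * e1 * u1⁻¹ * e1⁻¹) * (u2 * e2 * u2⁻¹ * e2⁻¹) := by
        intro u1 hu1 e1 he1 u2 hu2 e2 he2
        calc u1 * u2 * (e1 * e2) * (u1 * u2)⁻¹ * (e1 * e2)⁻¹
            = u1 * (u2 * e1) * e2 * u2⁻¹ * u1⁻¹ * e2⁻¹ * e1⁻¹ := by group
          _ = u1 * e1 * (u2 * e2 * u2⁻¹) * u1⁻¹ * e2⁻¹ * e1⁻¹ := by
              rw [← (c e1 he1 u2 hu2).eq]; group
          _ = u1 * e1 * u1⁻¹ * (u2 * e2 * u2⁻¹ * e2⁻¹) * e1⁻¹ := by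
              rw [mul_assoc (u1 * e1) _ u1⁻¹,
                ← (c u1⁻¹ (S1.inv_mem hu1) _ (S2.mul_mem (S2.mul_mem hu2 he2) (S2.inv_mem hu2))).eq]
              group
          _ = u1 * e1 * u1⁻¹ * e1⁻¹ * (u2 * e2 * u2⁻¹ * e2⁻¹) := by
              rw [mul_assoc, ← (c e1⁻¹ (S1.inv_mem he1) _
                (S2.mul_mem (S2.mul_mem (S2.mul_mem hu2 he2) (S2.inv_mem hu2)) (S2.inv_mem he2))).eq]
              group
      refine ⟨u1 * e1 * u1⁻¹ * e1⁻¹,
        S1.mul_mem (S1.mul_mem (S1.mul_mem hu1 he1) (S1.inv_mem hu1)) (S1.inv_mem he1),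
        u2 * e2 * u2⁻¹ * e2⁻¹,
        S2.mul_mem (S2.mul_mem (S2.mul_mem hu2 he2) (S2.inv_mem hu2)) (S2.inv_mem he2),
        split u1 hu1 e1 he1 u2 hu2 e2 he2, ?_⟩
      have e1P : e1 ∈ P := (h.1 he1).1
      have := split u1 hu1 e1 he1 u2 hu2 1 S2.one_mem
      simp only [mul_one, mul_inv_cancel, inv_one] at this
      rw [← this, mul_assoc (u1 * u2) e1, mul_assoc (u1 * u2)]
      exact (onSet _).mul_mem hu.2 (hconjO e1 e1P _ ((onSet _).inv_mem hu.2)))
    have hKP : K ≤ P ⊓ onSet (orb P x) := (Subgroup.closure_le _).mpr (by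
      rintro _ ⟨u, hu, e, he, rfl⟩
      refine ⟨P.mul_mem (P.mul_mem (P.mul_mem hu.1.1 he.1) (P.inv_mem hu.1.1)) (P.inv_mem he.1), ?_⟩
      rw [mul_assoc u e, mul_assoc u]
      exact (onSet _).mul_mem hu.2 (hconjO e he.1 _ ((onSet _).inv_mem hu.2)))
    have hKn : ∀ w ∈ P ⊓ onSet (orb P x), ∀ t ∈ K, w * t * w⁻¹ ∈ K := by
      intro w hw t ht
      have : K ≤ K.comap (MulAut.conj w).toMonoidHom := (Subgroup.closure_le _).mpr (by
        rintro _ ⟨u, hu, e, he, rfl⟩
        refine Subgroup.subset_closure ⟨w * u * w⁻¹,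
          ⟨hconjE w hw.1 u hu.1, hconjO w hw.1 u hu.2⟩, w * e * w⁻¹, hconjE w hw.1 e he, ?_⟩
        simp only [MulEquiv.coe_toMonoidHom, MulAut.conj_apply]
        group)
      exact this ht
    have hKne : K ≠ ⊥ := by
      intro hK
      have hcomm : ∀ u ∈ E ⊓ onSet (orb P x), ∀ w ∈ P ⊓ onSet (orb P x), u * w = w * u := by
        intro u hu w hw
        obtain ⟨e, he, hew⟩ := hlift x hx w hw
        have hcu : u * e = e * u := by
          have : u * e * u⁻¹ * e⁻¹ ∈ K := Subgroup.subset_closure ⟨u, hu, e, he, rfl⟩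
          rw [hK, Subgroup.mem_bot, mul_inv_eq_one, mul_inv_eq_iff_eq_mul] at this
          exact this
        have h' := congrArg (res (orb P x)) hcu
        rwa [res_mul (le_keeps_orb P x hu.1.1) (le_keeps_orb P x he.1),
          res_mul (le_keeps_orb P x he.1) (le_keeps_orb P x hu.1.1), res_of_mem_onSet hu.2, hew] at h'
      obtain ⟨O1, O2, H⟩ := hW.exists_halves htr (by omega)
      obtain ⟨e1, he1, hs1⟩ := H.sylow₁.exists_sign_neg (by have := card_halves H; omega)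
      obtain ⟨t, ht, hta, -⟩ := H.exists_swap
      have h1' : e1 ≠ 1 := by rintro rfl; rw [map_one] at hs1; exact absurd hs1 (by decide)
      obtain ⟨a, ha, has, hasw⟩ : ∃ a ∈ P ⊓ onSet (orb P x), Perm.sign a = 1 ∧ ∀ y ∈ O1, a y ∈ O2 := by
        rcases Int.units_eq_one_or (Perm.sign t) with hs | hs
        · exact ⟨t, ht, hs, hta⟩
        · exact ⟨t * e1, mul_mem ht he1.1, by rw [map_mul, hs, hs1]; decide,
            fun y hy => hta _ ((onSet_le_keeps O1 he1.2 y).mpr hy)⟩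
      obtain ⟨y, hy⟩ := H.nonempty
      have hk := keeps_of_commute_left H ha he1 h1'
        (hcomm a ⟨⟨ha.1, has⟩, ha.2⟩ e1 he1.1)
      exact Finset.disjoint_left.mp H.disj ((hk y).mpr hy) (hasw y hy)
    have hzK := center_mem_normal hW htr hx4 hz hz1 hzc hKP hKne hKn
    obtain ⟨a', ha', b', hb', hab', hao⟩ := hKM hzK
    obtain ⟨rfl, rfl⟩ := idp_unique h ha ha' hb hb' (hab.symm.trans hab')
    have haP : a ∈ P ⊓ onSet (orb P x) := ⟨(h.1 ha).1, hao⟩
    have hzE' : ∀ e ∈ E, z * e = e * z := fun e he =>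
      commute_of_res hz.2 (le_keeps_orb P x he.1) (hzc _ (hres e he.1))
    have hac : ∀ w ∈ P ⊓ onSet (orb P x), a * w = w * a := by
      intro w hw
      obtain ⟨e, he, hew⟩ := hlift x hx w hw
      obtain ⟨e1, he1, e2, he2, rfl⟩ := idp_exists h he
      have c12 := h.2.2.1
      have hze := hzE' _ he
      have e3 : a * e1 * (b * e2) = e1 * a * (e2 * b) := by
        calc a * e1 * (b * e2) = a * (e1 * b) * e2 := by group
          _ = a * (b * e1) * e2 := by rw [c12 e1 he1 b hb]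
          _ = a * b * (e1 * e2) := by group
          _ = e1 * e2 * (a * b) := by rw [← hab, hze]
          _ = e1 * (e2 * a) * b := by group
          _ = e1 * (a * e2) * b := by rw [c12 a ha e2 he2]
          _ = e1 * a * (e2 * b) := by group
      have hae := (idp_unique h (S1.mul_mem ha he1) (S1.mul_mem he1 ha) (S2.mul_mem hb he2)
        (S2.mul_mem he2 hb) e3).1
      have hae' : a * (e1 * e2) = e1 * e2 * a := by
        rw [← mul_assoc, hae, mul_assoc, c12 a ha e2 he2, mul_assoc]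
      have h' := congrArg (res (orb P x)) hae'
      rwa [res_mul (le_keeps_orb P x haP.1) (le_keeps_orb P x he.1),
        res_mul (le_keeps_orb P x he.1) (le_keeps_orb P x haP.1), res_of_mem_onSet hao, hew] at h'
    rcases hzu a haP hac with e | e
    · exact Or.inr (by rw [hab, e, one_mul]; exact hb)
    · exact Or.inl (e ▸ ha)
  -- restrictions of one factor to an orbit of the other colour are central
  have central : ∀ T1 T2 : Subgroup (Perm α), IsInternalDirectProduct T1 T2 E → ∀ x ∈ s,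
      4 ≤ (orb P x).card → ∀ z ∈ P ⊓ onSet (orb P x), z ≠ 1 →
      (∀ w ∈ P ⊓ onSet (orb P x), z * w = w * z) → z ∈ T2 →
      ∀ t ∈ T1, ∀ w ∈ P ⊓ onSet (orb P x), res (orb P x) t * w = w * res (orb P x) t := by
    intro T1 T2 hT x hx hx4 z hz hz1 hzc hzT t ht
    obtain ⟨hW, hres, htr⟩ := orbit_props hP hx
    have hbot : T1 ⊓ onSet (orb P x) = ⊥ := by
      by_contra hne
      have hm := center_mem_normal hW htr hx4 hz hz1 hzc
        (N := T1 ⊓ onSet (orb P x)) (fun u hu => ⟨(hT.1 hu.1).1, hu.2⟩) hne ?_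
      · have : z ∈ T1 ⊓ T2 := ⟨hm.1, hzT⟩
        rw [hT.2.2.2.1, Subgroup.mem_bot] at this
        exact hz1 this
      · intro w hw u hu
        obtain ⟨e, he, hew⟩ := hlift x hx w hw
        have hk := le_keeps_orb P x he.1
        have huk := le_keeps_orb P x (hT.1 hu.1).1
        have hconj : e * u * e⁻¹ ∈ onSet (orb P x) := by
          intro y hy
          have : e⁻¹ y ∉ orb P x := fun h' => hy (by simpa using (hk (e⁻¹ y)).mpr h')
          rw [Perm.mul_apply, Perm.mul_apply, hu.2 _ this]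
          simp
        have := res_of_mem_onSet hconj
        rw [res_mul (mul_mem hk huk) (inv_mem hk), res_mul hk huk, res_inv hk, hew,
          res_of_mem_onSet hu.2] at this
        rw [this]
        exact ⟨idp_conj_mem hT he hu.1, hconj⟩
    have hcent : ∀ t ∈ T1, ∀ u ∈ P ⊓ onSet (orb P x), Perm.sign u = 1 →
        res (orb P x) t * u = u * res (orb P x) t := by
      intro t ht u hu hus
      have huE : u ∈ E := ⟨hu.1, hus⟩
      have htk := le_keeps_orb P x (hT.1 ht).1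
      have hcm : u * t * u⁻¹ * t⁻¹ ∈ T1 ⊓ onSet (orb P x) := by
        refine ⟨T1.mul_mem (idp_conj_mem hT huE ht) (T1.inv_mem ht), ?_⟩
        rw [mul_assoc u t, mul_assoc u]
        refine (onSet _).mul_mem hu.2 fun y hy => ?_
        have : t⁻¹ y ∉ orb P x := fun h' => hy (by simpa using (htk (t⁻¹ y)).mpr h')
        rw [Perm.mul_apply, Perm.mul_apply, (onSet _).inv_mem hu.2 _ this]
        simp
      rw [hbot, Subgroup.mem_bot, mul_inv_eq_one, mul_inv_eq_iff_eq_mul] at hcm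
      have h' := congrArg (res (orb P x)) hcm
      rw [res_mul (le_keeps_orb P x hu.1) htk, res_mul htk (le_keeps_orb P x hu.1),
        res_of_mem_onSet hu.2] at h'
      exact h'.symm
    intro w hw
    obtain ⟨e, he, hew⟩ := hlift x hx w hw
    obtain ⟨e1, he1, e2, he2, rfl⟩ := idp_exists hT he
    have hr1 := hres t (hT.1 ht).1
    have hr2 := hres e1 (hT.1 he1).1
    have c1 : res (orb P x) t * res (orb P x) e1 = res (orb P x) e1 * res (orb P x) t :=
      centralizer_even_comm hW htr hx4 hr1 hr2 (fun u hu hus => hcent t ht u hu hus)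
        (fun u hu hus => hcent e1 he1 u hu hus)
    have c2 : res (orb P x) t * res (orb P x) e2 = res (orb P x) e2 * res (orb P x) t := by
      rw [← res_mul (le_keeps_orb P x (hT.1 ht).1) (le_keeps_orb P x (hT.2.1 he2).1),
        hT.2.2.1 t ht e2 he2, res_mul (le_keeps_orb P x (hT.2.1 he2).1) (le_keeps_orb P x (hT.1 ht).1)]
    rw [← hew, res_mul (le_keeps_orb P x (hT.1 he1).1) (le_keeps_orb P x (hT.2.1 he2).1),
      ← mul_assoc, c1, mul_assoc, c2, ← mul_assoc]
  -- the factors have different colours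
  have mixed : ∀ T1 T2 : Subgroup (Perm α), IsInternalDirectProduct T1 T2 E →
      (∀ x ∈ s, 4 ≤ (orb P x).card → ∀ z ∈ P ⊓ onSet (orb P x), z ≠ 1 →
        (∀ w ∈ P ⊓ onSet (orb P x), z * w = w * z) → z ∈ T2) → T1 = ⊥ := by
    intro T1 T2 hT hall
    rw [eq_bot_iff]
    intro t ht
    have htP := (hT.1 ht).1
    have h2' : t ∈ T2 := mem_of_res hP T2 _ t htP rfl fun y hy => by
      have hys : y ∈ s := by
        by_contra h'
        exact Perm.mem_support.mp hy (hP.le htP y h')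
      have hy4 := h4 y hys (hbig y hys ⟨t, htP, Perm.mem_support.mp hy⟩)
      obtain ⟨z, hz, hz1, -, hzu, hzc, -⟩ := colour y hys hy4
      rcases hzu _ ((orbit_props hP hys).2.1 t htP)
        (central T1 T2 hT y hys hy4 z hz hz1 hzc (hall y hys hy4 z hz hz1 hzc) t ht) with e | e
      · rw [e]; exact T2.one_mem
      · rw [e]; exact hall y hys hy4 z hz hz1 hzc
    have : t ∈ T1 ⊓ T2 := ⟨ht, h2'⟩
    rwa [hT.2.2.2.1] at this
  obtain ⟨i, hi, hi4, zi, hzi, hzi1, hzic, hziS⟩ : ∃ i ∈ s, 4 ≤ (orb P i).card ∧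
      ∃ z ∈ P ⊓ onSet (orb P i), z ≠ 1 ∧ (∀ w ∈ P ⊓ onSet (orb P i), z * w = w * z) ∧ z ∈ S1 := by
    by_contra hno
    refine h1 (mixed S1 S2 h fun x hx hx4 z hz hz1 hzc => ?_)
    obtain ⟨z', -, -, -, hzu, -, hc⟩ := colour x hx hx4
    rcases hzu z hz hzc with e | e
    · exact absurd e hz1
    · subst e
      exact hc.resolve_left fun hS => hno ⟨x, hx, hx4, z, hz, hz1, hzc, hS⟩
  obtain ⟨j, hj, hj4, zj, hzj, hzj1, hzjc, hzjS⟩ : ∃ j ∈ s, 4 ≤ (orb P j).card ∧
      ∃ z ∈ P ⊓ onSet (orb P j), z ≠ 1 ∧ (∀ w ∈ P ⊓ onSet (orb P j), z * w = w * z) ∧ z ∈ S2 := by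
    by_contra hno
    refine h2 (mixed S2 S1 (idp_symm h) fun x hx hx4 z hz hz1 hzc => ?_)
    obtain ⟨z', -, -, -, hzu, -, hc⟩ := colour x hx hx4
    rcases hzu z hz hzc with e | e
    · exact absurd e hz1
    · subst e
      exact hc.resolve_right fun hS => hno ⟨x, hx, hx4, z, hz, hz1, hzc, hS⟩
  have hd : Disjoint (orb P i) (orb P j) := Finset.disjoint_left.mpr fun t ht ht' => by
    have e : orb P i = orb P j := by rw [← orb_eq_of_mem ht, orb_eq_of_mem ht']
    obtain ⟨z', -, -, -, hzu, -, -⟩ := colour j hj hj4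
    have ei : zi = z' := ((hzu zi (e ▸ hzi) (e ▸ hzic)).resolve_left hzi1)
    have ej : zj = z' := ((hzu zj hzj hzjc).resolve_left hzj1)
    have : zi ∈ S1 ⊓ S2 := ⟨hziS, by rw [ei, ← ej]; exact hzjS⟩
    rw [h.2.2.2.1, Subgroup.mem_bot] at this
    exact hzi1 this
  obtain ⟨fi, hfi, hfis⟩ := (orbit_props hP hi).1.exists_sign_neg (by omega)
  obtain ⟨fj, hfj, hfjs⟩ := (orbit_props hP hj).1.exists_sign_neg (by omega)
  have hfE : fi * fj ∈ E := ⟨P.mul_mem hfi.1 hfj.1, by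
    change Perm.sign _ = 1; rw [map_mul, hfis, hfjs]; decide⟩
  obtain ⟨a, ha, b, hb, hab⟩ := idp_exists h hfE
  have haP := (h.1 ha).1
  have hbP := (h.2.1 hb).1
  have evenCentral : ∀ T1 T2 : Subgroup (Perm α), IsInternalDirectProduct T1 T2 E → ∀ y ∈ s,
      ∀ z ∈ P ⊓ onSet (orb P y), 4 ≤ (orb P y).card → z ≠ 1 →
      (∀ w ∈ P ⊓ onSet (orb P y), z * w = w * z) → z ∈ T2 → ∀ t ∈ T1,
      Perm.sign (res (orb P y) t) = 1 := by
    intro T1 T2 hT y hys z hz hy4 hz1 hzc hzT t ht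
    obtain ⟨z', -, -, hzs', hzu, -, -⟩ := colour y hys hy4
    rcases hzu _ ((orbit_props hP hys).2.1 t (hT.1 ht).1)
      (central T1 T2 hT y hys hy4 z hz hz1 hzc hzT t ht) with e | e
    · rw [e, map_one]
    · rw [e, hzs']
  -- the first component is odd on the orbit of `i` and even elsewhere
  set Oi := orb P i
  have hresP := (orbit_props hP hi).2.1
  have hbi : Perm.sign (res Oi b) = 1 :=
    evenCentral S2 S1 (idp_symm h) i hi zi hzi hi4 hzi1 hzic hziS b hb
  have hai : Perm.sign (res Oi a) = -1 := by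
    have e : res Oi (fi * fj) = fi := by
      rw [res_mul (le_keeps_orb P i hfi.1) (le_keeps_orb P i hfj.1), res_of_mem_onSet hfi.2,
        res_onSet_disjoint hd hfj.2, mul_one]
    rw [hab, res_mul (le_keeps_orb P i haP) (le_keeps_orb P i hbP)] at e
    have := congrArg Perm.sign e
    rwa [map_mul, hbi, mul_one, hfis] at this
  have hrest : a * (res Oi a)⁻¹ ∈ (Perm.sign : Perm α →* ℤˣ).ker := by
    refine mem_of_res hP _ _ _ (P.mul_mem haP (P.inv_mem (hresP a haP).1)) rfl fun y hy => ?_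
    have hys : y ∈ s := by
      by_contra h'
      exact Perm.mem_support.mp hy (hP.le (P.mul_mem haP (P.inv_mem (hresP a haP).1)) y h')
    have hy4 := h4 y hys (hbig y hys ⟨_, P.mul_mem haP (P.inv_mem (hresP a haP).1), Perm.mem_support.mp hy⟩)
    rw [MonoidHom.mem_ker, res_mul (le_keeps_orb P y haP) (inv_mem (le_keeps_orb P y (hresP a haP).1)),
      res_inv (le_keeps_orb P y (hresP a haP).1), map_mul, map_inv]
    by_cases hdy : Disjoint (orb P y) Oi
    · rw [res_onSet_disjoint hdy (res_mem_onSet _ _), map_one, inv_one, mul_one]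
      obtain ⟨z, hz, hz1, -, -, hzc, hS | hS⟩ := colour y hys hy4
      · have hbe := evenCentral S2 S1 (idp_symm h) y hys z hz hy4 hz1 hzc hS b hb
        by_cases hdj : Disjoint (orb P y) (orb P j)
        · have e : res (orb P y) (fi * fj) = 1 := by
            rw [res_mul (le_keeps_orb P y hfi.1) (le_keeps_orb P y hfj.1),
              res_onSet_disjoint hdy hfi.2, res_onSet_disjoint hdj hfj.2, one_mul]
          rw [hab, res_mul (le_keeps_orb P y haP) (le_keeps_orb P y hbP)] at e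
          have := congrArg Perm.sign e
          rwa [map_mul, hbe, mul_one, map_one] at this
        · obtain ⟨t, ht, ht'⟩ := Finset.not_disjoint_iff.mp hdj
          have e : orb P j = orb P y := by rw [← orb_eq_of_mem ht', orb_eq_of_mem ht]
          exact evenCentral S1 S2 h y hys zj (e ▸ hzj) hy4 hzj1 (e ▸ hzjc) hzjS a ha
      · exact evenCentral S1 S2 h y hys z hz hy4 hz1 hzc hS a ha
    · obtain ⟨t, ht, ht'⟩ := Finset.not_disjoint_iff.mp hdy
      have e : orb P y = Oi := by rw [← orb_eq_of_mem ht]; exact orb_eq_of_mem ht'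
      rw [e, res_of_mem_onSet (res_mem_onSet Oi a), mul_inv_cancel]
  rw [MonoidHom.mem_ker, map_mul, map_inv, hai, show Perm.sign a = 1 from (h.1 ha).2] at hrest
  exact absurd hrest (by decide)

end CfsgLib.SymSylow54
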